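import Cfsg.Agent.H654.HT.TwF4Y

/-!
# Counting the root values of the tori of `²F₄(q)` (S4933, part (O), helper654)

`p ≥ 5`.  `count1`, `count2`, `count4` : the numbers of the roots with a given value modulo `p` for `p ∣ q - 1`, `q + 1`,
`q² + 1` (`p ≠ 5`); `cnt_five` : `p = 5`.
-/

set_option autoImplicit false
set_option linter.unusedSectionVars false

namespace Cfsg.Agent.H654.HT

open CoxeterSystem Cfsg Cfsg.Lie Cfsg.Lie.ChevalleyDatum Finset
open Cfsg.Agent.ChevalleyStructure Cfsg.Agent.ChevalleyStructure.CoxeterGeom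
  Cfsg.Agent.ChevalleyStructure.CoxeterGeomTypes
open Cfsg.Agent.Tits.Roots Cfsg.Agent.Nodes.Reps Cfsg.Agent.Nodes.RGDChev
open Cfsg.Agent.H493.F4Tor Cfsg.Agent.H129.SuzT
open Cfsg.Agent.H234.HT Cfsg.Agent.H73.HT

/-- the index of a root vector -/
def ir (s : Fin 48) : chevF4.Idx := Sum.inr s

theorem ir_injective : Function.Injective ir := Sum.inr_injective

theorem idx_cases (i : chevF4.Idx) : (∃ j, i = Sum.inl j) ∨ ∃ s : Fin 48, i = ir s := by
  rcases i with i | s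
  · exact Or.inl ⟨i, rfl⟩
  · exact Or.inr ⟨s, rfl⟩

/-- the coordinates of the roots -/
def v (s : Fin 48) (i : Fin 4) : ℤ := vec chevF4 4 s i

theorem rt_eq (L : Fin 4 → ℤ) (s : Fin 48) : rt L s = v s 0 * L 0 + v s 1 * L 1 + v s 2 * L 2 + v s 3 * L 3 := by
  unfold rt La v
  rw [Fin.sum_univ_four]

/-! ### the tables -/

theorem tab1 : ∀ s : Fin 48, (v s 1 = 2 ∧ v s 2 = 1) ∨
    ((v s 1 - 2) ^ 2 - 2 * (v s 2 - 1) ^ 2 ∣ 504) := by
  decide +kernel

theorem card1 : (univ.filter fun s : Fin 48 => v s 1 = 2 ∧ v s 2 = 1).card = 6 := by decide +kernel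

theorem tab2 : ∀ s : Fin 48, (2 * v s 0 - v s 1 = 0 ∧ v s 2 - 2 * v s 3 = 1) ∨
    ((2 * v s 0 - v s 1) ^ 2 + 2 * (1 - (v s 2 - 2 * v s 3)) ^ 2 ∣ 72) := by
  decide +kernel

theorem card2 : (univ.filter fun s : Fin 48 => 2 * v s 0 - v s 1 = 0 ∧ v s 2 - 2 * v s 3 = 1).card = 6 := by
  decide +kernel

/-- the coefficients in the case `q² + 1` -/
def cx (s : Fin 48) : ℤ := -v s 0 + 2 * v s 2 - 2 * v s 3

def cy (s : Fin 48) : ℤ := v s 1 - 2 * v s 2 + v s 3

theorem tab4 : ∀ s : Fin 48, (cx s = 0 ∧ cy s = 1) ∨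
    (2 * (cy s - 1) ^ 2 + 2 * cx s * (cy s - 1) + cx s ^ 2 ∣ 40) := by
  decide +kernel

theorem card4 : (univ.filter fun s : Fin 48 => cx s = 0 ∧ cy s = 1).card = 5 := by decide +kernel

theorem seven : ∀ β : ZMod 7, 2 * β ^ 2 = 1 →
    ¬ 7 ∣ (univ.filter fun s : Fin 48 => ((v s 1 : ℤ) : ZMod 7) * β + ((v s 2 : ℤ) : ZMod 7) = 2 * β + 1).card := by
  decide +kernel

theorem five_a : ∀ β : ZMod 25, 2 * β ^ 2 - 2 * β + 1 = 0 →
    ¬ 5 ∣ ∑ s ∈ univ.filter (fun s : Fin 48 => (((cx s : ℤ) : ZMod 25) * β + ((cy s : ℤ) : ZMod 25)).val % 5 = 1),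
      (((cx s : ℤ) : ZMod 25) * β + ((cy s : ℤ) : ZMod 25)).val / 5 := by
  decide +kernel

theorem five_b : ∀ β : ZMod 25, 2 * β ^ 2 - 2 * β + 1 = 0 → ∀ s : Fin 48,
    ((cx s : ℤ) : ZMod 25) * β + ((cy s : ℤ) : ZMod 25) = 2 * β → s = 30 := by
  decide +kernel

theorem five_c : cx 30 = 2 ∧ cy 30 = 0 := by decide +kernel

theorem no_six : (∀ β : ZMod 5, 4 * β ^ 4 - 2 * β ^ 2 + 1 ≠ 0) ∧ ∀ β : ZMod 7, 4 * β ^ 4 - 2 * β ^ 2 + 1 ≠ 0 := by
  decide +kernel

theorem roots_D : ∃ s : Fin 48, v s 0 = 0 ∧ v s 1 = 0 ∧ v s 2 = -1 ∧ v s 3 = 0 := ⟨22, by decide +kernel⟩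

theorem roots_E : ∃ s : Fin 48, v s 0 = 0 ∧ v s 1 = 0 ∧ v s 2 = -1 ∧ v s 3 = -1 := ⟨21, by decide +kernel⟩

/-! ### the exponents modulo `p` -/

section

variable {p M : ℕ} [hp : Fact p.Prime]

theorem int_dvd {a : ℤ} : ((a : ℤ) : ZMod p) = 0 ↔ (p : ℤ) ∣ a := ZMod.intCast_zmod_eq_zero_iff_dvd a p

theorem exo_cast (hM : 1 ≤ M) (L : Fin 4 → ℤ) (s : Fin 48) :
    (((exo (p ^ M) L (ir s) : ℕ)) : ZMod p) = ((rt L s : ℤ) : ZMod p) := by
  have hN0 : ((p ^ M : ℕ) : ℤ) ≠ 0 := by exact_mod_cast (pow_pos hp.out.pos M).ne'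
  have h1 : (0 : ℤ) ≤ rt L s % ((p ^ M : ℕ) : ℤ) := Int.emod_nonneg _ hN0
  have h2 : ((exo (p ^ M) L (ir s) : ℕ) : ℤ) = rt L s % ((p ^ M : ℕ) : ℤ) := Int.toNat_of_nonneg h1
  have h3 : (((exo (p ^ M) L (ir s) : ℕ)) : ZMod p) = ((((exo (p ^ M) L (ir s) : ℕ)) : ℤ) : ZMod p) := by
    rw [Int.cast_natCast]
  rw [h3, h2]
  have h4 : rt L s % ((p ^ M : ℕ) : ℤ) = rt L s - ((p ^ M : ℕ) : ℤ) * (rt L s / ((p ^ M : ℕ) : ℤ)) := by
    have := Int.emod_add_mul_ediv (rt L s) ((p ^ M : ℕ) : ℤ)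
    linarith
  rw [h4, Int.cast_sub, Int.cast_mul, Int.cast_natCast, Nat.cast_pow, ZMod.natCast_self, zero_pow (by omega),
    zero_mul, sub_zero]

theorem nm_exo (hM : 1 ≤ M) (L : Fin 4 → ℤ) {t : ZMod p} (ht : t ≠ 0) :
    nm p (exo (p ^ M) L) t = (univ.filter fun s : Fin 48 => ((rt L s : ℤ) : ZMod p) = t).card := by
  classical
  symm
  unfold nm
  refine card_bij (fun s _ => ir s) ?_ (fun _ _ _ _ h => ir_injective h) ?_
  · intro s hs
    rw [mem_filter] at hs ⊢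
    exact ⟨mem_univ _, by rw [exo_cast hM]; exact hs.2⟩
  · intro i hi
    rcases idx_cases i with ⟨j, rfl⟩ | ⟨s, rfl⟩
    · rw [mem_filter] at hi
      exact absurd (by rw [← hi.2]; simp [exo]) ht
    · refine ⟨s, ?_, rfl⟩
      rw [mem_filter] at hi ⊢
      exact ⟨mem_univ _, by rw [← exo_cast hM]; exact hi.2⟩

variable (h5 : 5 ≤ p)

include h5

theorem two_ne : (2 : ZMod p) ≠ 0 := by
  intro h
  have h1 : ((2 : ℕ) : ZMod p) = 0 := by exact_mod_cast h
  rw [ZMod.natCast_eq_zero_iff] at h1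
  have := Nat.le_of_dvd (by norm_num) h1
  omega

theorem three_ne : (3 : ZMod p) ≠ 0 := by
  intro h
  have h1 : ((3 : ℕ) : ZMod p) = 0 := by exact_mod_cast h
  rw [ZMod.natCast_eq_zero_iff] at h1
  have := Nat.le_of_dvd (by norm_num) h1
  omega

theorem eq_of_dvd {n a b c : ℕ} (ha : n = 2 ^ a * (3 ^ b * c)) (hc : c.Prime) (h : p ∣ n) : p = c := by
  rw [ha] at h
  rcases hp.out.dvd_mul.1 h with h1 | h1
  · have := Nat.le_of_dvd (by norm_num) (hp.out.dvd_of_dvd_pow h1)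
    omega
  · rcases hp.out.dvd_mul.1 h1 with h1 | h1
    · have := Nat.le_of_dvd (by norm_num) (hp.out.dvd_of_dvd_pow h1)
      omega
    · exact (Nat.prime_dvd_prime_iff_eq hp.out hc).1 h1

theorem count1 {β : ZMod p} (hβ : 2 * β ^ 2 = 1) :
    ¬ p ∣ (univ.filter fun s : Fin 48 => ((v s 1 : ℤ) : ZMod p) * β + ((v s 2 : ℤ) : ZMod p) = 2 * β + 1).card := by
  by_cases h7 : p = 7
  · subst h7
    exact seven β hβ
  have h1 : (univ.filter fun s : Fin 48 => ((v s 1 : ℤ) : ZMod p) * β + ((v s 2 : ℤ) : ZMod p) = 2 * β + 1) =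
      (univ.filter fun s : Fin 48 => v s 1 = 2 ∧ v s 2 = 1) := by
    ext s
    simp only [mem_filter, mem_univ, true_and]
    constructor
    · intro h
      rcases tab1 s with h2 | h2
      · exact h2
      · exfalso
        apply h7
        have h3 : (((v s 1 - 2) ^ 2 - 2 * (v s 2 - 1) ^ 2 : ℤ) : ZMod p) = 0 := by
          push_cast
          linear_combination -((v s 1 : ZMod p) - 2) ^ 2 * hβ +
            2 * (((v s 1 : ZMod p) - 2) * β - ((v s 2 : ZMod p) - 1)) * h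
        have h4 : (p : ℤ) ∣ 504 := (int_dvd.1 h3).trans h2
        exact eq_of_dvd h5 (n := 504) (a := 3) (b := 2) (c := 7) (by norm_num) (by norm_num) (by exact_mod_cast h4)
    · rintro ⟨h1, h2⟩
      rw [h1, h2]
      push_cast
      ring
  rw [h1, card1]
  intro h
  have h2 := Nat.le_of_dvd (by norm_num) h
  have : p = 5 ∨ p = 6 := by omega
  rcases this with rfl | rfl
  · revert h; decide
  · exact absurd hp.out (by norm_num)

theorem count2 {β : ZMod p} (hβ : 2 * β ^ 2 = -1) :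
    ¬ p ∣ (univ.filter fun s : Fin 48 =>
      ((2 * v s 0 - v s 1 : ℤ) : ZMod p) * β + ((v s 2 - 2 * v s 3 : ℤ) : ZMod p) = 1).card := by
  have h1 : (univ.filter fun s : Fin 48 =>
      ((2 * v s 0 - v s 1 : ℤ) : ZMod p) * β + ((v s 2 - 2 * v s 3 : ℤ) : ZMod p) = 1) =
      (univ.filter fun s : Fin 48 => 2 * v s 0 - v s 1 = 0 ∧ v s 2 - 2 * v s 3 = 1) := by
    ext s
    simp only [mem_filter, mem_univ, true_and]
    constructor
    · intro h
      rcases tab2 s with h2 | h2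
      · exact h2
      · exfalso
        have h3 : (((2 * v s 0 - v s 1) ^ 2 + 2 * (1 - (v s 2 - 2 * v s 3)) ^ 2 : ℤ) : ZMod p) = 0 := by
          push_cast at h ⊢
          linear_combination (2 * (v s 0 : ZMod p) - (v s 1 : ZMod p)) ^ 2 * hβ -
            2 * ((2 * (v s 0 : ZMod p) - (v s 1 : ZMod p)) * β + (1 - ((v s 2 : ZMod p) - 2 * (v s 3 : ZMod p)))) * h
        have h4 : (p : ℤ) ∣ 72 := (int_dvd.1 h3).trans h2
        have h6 : p ∣ 504 := by
          have h7 : p ∣ 72 := by exact_mod_cast h4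
          exact h7.trans (by norm_num)
        have h7 := eq_of_dvd h5 (n := 504) (a := 3) (b := 2) (c := 7) (by norm_num) (by norm_num) h6
        subst h7
        revert h4; decide
    · rintro ⟨h1, h2⟩
      rw [h1, h2]
      push_cast
      ring
  rw [h1, card2]
  intro h
  have h2 := Nat.le_of_dvd (by norm_num) h
  have : p = 5 ∨ p = 6 := by omega
  rcases this with rfl | rfl
  · revert h; decide
  · exact absurd hp.out (by norm_num)

theorem count4 (hp5 : p ≠ 5) {β : ZMod p} (hβ : 2 * β ^ 2 - 2 * β + 1 = 0) :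
    ¬ p ∣ (univ.filter fun s : Fin 48 => ((cx s : ℤ) : ZMod p) * β + ((cy s : ℤ) : ZMod p) = 1).card := by
  have h1 : (univ.filter fun s : Fin 48 => ((cx s : ℤ) : ZMod p) * β + ((cy s : ℤ) : ZMod p) = 1) =
      (univ.filter fun s : Fin 48 => cx s = 0 ∧ cy s = 1) := by
    ext s
    simp only [mem_filter, mem_univ, true_and]
    constructor
    · intro h
      rcases tab4 s with h2 | h2
      · exact h2
      · exfalso
        apply hp5
        have h3 : ((2 * (cy s - 1) ^ 2 + 2 * cx s * (cy s - 1) + cx s ^ 2 : ℤ) : ZMod p) = 0 := by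
          push_cast
          linear_combination (cx s : ZMod p) ^ 2 * hβ +
            (2 * ((cy s : ZMod p) - 1 - (cx s : ZMod p) * β) + 2 * (cx s : ZMod p)) * h
        have h4 : (p : ℤ) ∣ 40 := (int_dvd.1 h3).trans h2
        exact eq_of_dvd h5 (n := 40) (a := 3) (b := 0) (c := 5) (by norm_num) (by norm_num) (by exact_mod_cast h4)
    · rintro ⟨h1, h2⟩
      rw [h1, h2]
      push_cast
      ring
  rw [h1, card4]
  intro h
  exact hp5 ((Nat.prime_dvd_prime_iff_eq hp.out Nat.prime_five).1 h)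

end

/-! ### `p = 5`, `5 ^ M ∣ q² + 1` -/

/-- the exponents are `cx β + cy` modulo `5 ^ M` -/
theorem cnt_five {M : ℕ} (hM : 2 ≤ M) (L : Fin 4 → ℤ) {β : ℤ} (hβ : ((5 ^ M : ℕ) : ℤ) ∣ 2 * β ^ 2 - 2 * β + 1)
    (hL : ∀ s, ((5 ^ M : ℕ) : ℤ) ∣ rt L s - (cx s * β + cy s)) : Cnt 5 M (exo (5 ^ M) L) := by
  classical
  have hN0 : ((5 ^ M : ℕ) : ℤ) ≠ 0 := by positivity
  have h25 : ((25 : ℕ) : ℤ) ∣ ((5 ^ M : ℕ) : ℤ) := by
    have : (25 : ℕ) ∣ 5 ^ M := by
      rw [show 25 = 5 ^ 2 by norm_num]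
      exact pow_dvd_pow 5 hM
    exact_mod_cast this
  have hex : ∀ s : Fin 48, ((exo (5 ^ M) L (ir s) : ℕ) : ℤ) = rt L s % ((5 ^ M : ℕ) : ℤ) := fun s =>
    Int.toNat_of_nonneg (Int.emod_nonneg _ hN0)
  have hcast : ∀ s : Fin 48, ((exo (5 ^ M) L (ir s) : ℕ) : ZMod 25) =
      ((cx s : ℤ) : ZMod 25) * (β : ZMod 25) + ((cy s : ℤ) : ZMod 25) := by
    intro s
    have h1 : (((exo (5 ^ M) L (ir s) : ℕ)) : ZMod 25) = ((((exo (5 ^ M) L (ir s) : ℕ)) : ℤ) : ZMod 25) := by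
      rw [Int.cast_natCast]
    have h2 : ((25 : ℕ) : ℤ) ∣ rt L s % ((5 ^ M : ℕ) : ℤ) - (cx s * β + cy s) := by
      have h3 := (h25.trans (hL s))
      have h4 : ((25 : ℕ) : ℤ) ∣ ((5 ^ M : ℕ) : ℤ) * (rt L s / ((5 ^ M : ℕ) : ℤ)) := h25.mul_right _
      have h5 := Int.emod_add_mul_ediv (rt L s) ((5 ^ M : ℕ) : ℤ)
      have h6 : rt L s % ((5 ^ M : ℕ) : ℤ) - (cx s * β + cy s) =
          (rt L s - (cx s * β + cy s)) - ((5 ^ M : ℕ) : ℤ) * (rt L s / ((5 ^ M : ℕ) : ℤ)) := by linarith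
      rw [h6]
      exact dvd_sub h3 h4
    have h3 := (ZMod.intCast_zmod_eq_zero_iff_dvd _ 25).2 h2
    rw [h1, hex s]
    push_cast at h3 ⊢
    linear_combination h3
  have hβ25 : 2 * (β : ZMod 25) ^ 2 - 2 * (β : ZMod 25) + 1 = 0 := by
    have h3 := (ZMod.intCast_zmod_eq_zero_iff_dvd _ 25).2 (h25.trans hβ)
    push_cast at h3
    exact h3
  rcases Nat.lt_or_ge M 3 with h3 | h3
  · -- `M = 2`
    obtain rfl : M = 2 := by omega
    have hval : ∀ s : Fin 48, exo (5 ^ 2) L (ir s) =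
        (((cx s : ℤ) : ZMod 25) * (β : ZMod 25) + ((cy s : ℤ) : ZMod 25)).val := by
      intro s
      rw [← hcast s, ZMod.val_natCast]
      refine (Nat.mod_eq_of_lt ?_).symm
      have h4 := hex s
      have h6 := Int.emod_lt_of_pos (rt L s) (show (0 : ℤ) < ((5 ^ 2 : ℕ) : ℤ) by norm_num)
      have h7 : ((exo (5 ^ 2) L (ir s) : ℕ) : ℤ) < 25 := by
        rw [h4]; simpa using h6
      exact_mod_cast h7
    refine ⟨1, by norm_num, Or.inr ⟨le_refl _, ?_⟩⟩
    have h4 := five_a (β : ZMod 25) hβ25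
    convert h4 using 2
    symm
    refine sum_bij (fun s _ => ir s) ?_ (fun _ _ _ _ h => ir_injective h) ?_ ?_
    · intro s hs
      rw [mem_filter] at hs ⊢
      refine ⟨mem_univ _, ?_⟩
      rw [hval]
      simpa using hs.2
    · intro i hi
      rcases idx_cases i with ⟨j, rfl⟩ | ⟨s, rfl⟩
      · rw [mem_filter] at hi
        exact absurd hi.2 (by simp [exo])
      · refine ⟨s, ?_, rfl⟩
        rw [mem_filter] at hi ⊢
        refine ⟨mem_univ _, ?_⟩
        have h6 := hi.2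
        rw [hval] at h6
        simpa using h6
    · intro s _
      rw [hval]
      norm_num
  · -- `3 ≤ M`
    have hd : 25 ∣ 5 ^ (M - 1) := by
      rw [show 25 = 5 ^ 2 by norm_num]
      exact pow_dvd_pow 5 (by omega)
    have h30 : ((exo (5 ^ M) L (ir 30) : ℕ) : ZMod 25) = 2 * (β : ZMod 25) := by
      rw [hcast, five_c.1, five_c.2]
      push_cast
      ring
    have hr : ¬ 5 ∣ exo (5 ^ M) L (ir 30) := by
      intro h
      obtain ⟨c, hc⟩ := h
      rw [hc] at h30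
      push_cast at h30
      have h6 : (10 : ZMod 25) * ((2 * (β : ZMod 25) ^ 2 - 2 * (β : ZMod 25) + 1)) = 0 := by rw [hβ25, mul_zero]
      have h7 : (10 : ZMod 25) * (2 * (β : ZMod 25)) = 0 := by
        rw [← h30, ← mul_assoc, show (10 : ZMod 25) * 5 = 0 by decide, zero_mul]
      have h8 : (10 : ZMod 25) = 0 := by linear_combination h6 - (β : ZMod 25) * h7 + h7
      exact absurd h8 (by decide)
    refine ⟨exo (5 ^ M) L (ir 30), hr, Or.inl ?_⟩
    have h4 : (univ.filter fun i : chevF4.Idx => exo (5 ^ M) L i % 5 ^ (M - 1) =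
        exo (5 ^ M) L (ir 30) % 5 ^ (M - 1)) = {ir 30} := by
      ext i
      rw [mem_filter, mem_singleton]
      constructor
      · rintro ⟨-, h⟩
        rcases idx_cases i with ⟨j, rfl⟩ | ⟨s, rfl⟩
        · exfalso
          apply hr
          have h6 : exo (5 ^ M) L (Sum.inl j) = 0 := rfl
          rw [h6, Nat.zero_mod] at h
          exact (Dvd.dvd.trans (by norm_num) hd).trans (Nat.dvd_of_mod_eq_zero h.symm)
        · have h6 : ((exo (5 ^ M) L (ir s) : ℕ) : ZMod 25) =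
              ((exo (5 ^ M) L (ir 30) : ℕ) : ZMod 25) :=
            (ZMod.natCast_eq_natCast_iff _ _ _).2 (Nat.ModEq.of_dvd hd h)
          rw [h30, hcast] at h6
          rw [five_b _ hβ25 s h6]
      · rintro rfl
        exact ⟨mem_univ _, rfl⟩
    rw [h4, card_singleton]
    norm_num

end Cfsg.Agent.H654.HT
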